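import Mathlib

/-!
# Comparing the `p`-subgroups of two groups (helper530, S4933 classical rows)

`Emb p A B` : every `p`-subgroup of `A` embeds in `B`.
* `Emb.of_hom`, `Emb.back` : a homomorphism with `p'`-kernel, and the converse if the `p`-parts of the orders agree.
-/

set_option autoImplicit false

namespace Cfsg.Agent.H530.HT

universe u v w

/-- every `p`-subgroup of `A` embeds in `B` -/
def Emb (p : ℕ) (A : Type u) [Group A] (B : Type v) [Group B] : Prop :=
  ∀ P : Subgroup A, IsPGroup p P → ∃ φ : P →* B, Function.Injective φ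

section

variable {p : ℕ} {A : Type u} [Group A] {B : Type v} [Group B] {C : Type w} [Group C]

theorem Emb.trans (h₁ : Emb p A B) (h₂ : Emb p B C) : Emb p A C := by
  intro P hP
  obtain ⟨φ, hφ⟩ := h₁ P hP
  have hR : IsPGroup p φ.range := hP.of_surjective φ.rangeRestrict φ.rangeRestrict_surjective
  obtain ⟨ψ, hψ⟩ := h₂ φ.range hR
  refine ⟨ψ.comp φ.rangeRestrict, hψ.comp fun x y h => hφ ?_⟩
  exact congrArg Subtype.val h

/-- the general form: an abstract `p`-group inside `A` -/
theorem Emb.apply (h : Emb p A B) {P : Type w} [Group P] (hP : IsPGroup p P) (f : P →* A)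
    (hf : Function.Injective f) : ∃ φ : P →* B, Function.Injective φ := by
  have hR : IsPGroup p f.range := hP.of_surjective f.rangeRestrict f.rangeRestrict_surjective
  obtain ⟨ψ, hψ⟩ := h f.range hR
  exact ⟨ψ.comp f.rangeRestrict, hψ.comp fun x y h => hf (congrArg Subtype.val h)⟩

theorem Emb.of_injective (f : A →* B) (hf : Function.Injective f) : Emb p A B :=
  fun P _ => ⟨f.comp P.subtype, hf.comp P.subtype_injective⟩

theorem Emb.of_equiv (e : A ≃* B) : Emb p A B := Emb.of_injective e.toMonoidHom e.injective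

theorem inj_of_kernel [Finite A] [hp : Fact p.Prime] (f : A →* B) (hk : ¬ p ∣ Nat.card f.ker) (P : Subgroup A)
    (hP : IsPGroup p P) : Function.Injective (f.comp P.subtype) := by
  rw [injective_iff_map_eq_one]
  intro x hx
  by_contra hx1
  have hxk : (x : A) ∈ f.ker := hx
  obtain ⟨k, hk'⟩ := IsPGroup.iff_orderOf.1 hP x
  have hk0 : k ≠ 0 := by
    rintro rfl
    rw [pow_zero, orderOf_eq_one_iff] at hk'
    exact hx1 hk'
  apply hk
  have h1 : orderOf (⟨x, hxk⟩ : f.ker) = p ^ k := by
    rw [Subgroup.orderOf_mk, Subgroup.orderOf_coe, hk']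
  exact (dvd_pow_self p hk0).trans (h1 ▸ orderOf_dvd_natCard _)

/-- a homomorphism with `p'`-kernel -/
theorem Emb.of_hom [Finite A] [Fact p.Prime] (f : A →* B) (hk : ¬ p ∣ Nat.card f.ker) : Emb p A B :=
  fun P hP => ⟨f.comp P.subtype, inj_of_kernel f hk P hP⟩

/-- the converse if the `p`-parts of the orders agree -/
theorem Emb.back [Finite A] [Finite B] [hp : Fact p.Prime] (f : A →* B) (hk : ¬ p ∣ Nat.card f.ker)
    (hv : (Nat.card A).factorization p = (Nat.card B).factorization p) : Emb p B A := by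
  intro P hP
  obtain ⟨Q⟩ : Nonempty (Sylow p A) := inferInstance
  have hQ := inj_of_kernel f hk (Q : Subgroup A) Q.2
  let e : (Q : Subgroup A) ≃* (f.comp (Q : Subgroup A).subtype).range := MonoidHom.ofInjective hQ
  have hcard : Nat.card (f.comp (Q : Subgroup A).subtype).range = p ^ (Nat.card B).factorization p := by
    rw [← Nat.card_congr e.toEquiv, ← hv]
    exact Q.card_eq_multiplicity
  let R : Sylow p B := Sylow.ofCard _ hcard
  obtain ⟨S, hS⟩ := hP.exists_le_sylow
  obtain ⟨g, hg⟩ := MulAction.exists_smul_eq B S R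
  -- `P ≤ S`, `g S g⁻¹ = R`
  have hPR : ∀ x ∈ P, g * x * g⁻¹ ∈ (R : Subgroup B) := by
    intro x hx
    rw [← hg, Sylow.coe_subgroup_smul]
    exact Subgroup.smul_mem_pointwise_smul _ (MulAut.conj g) _ (hS hx)
  let ψ : P →* (R : Subgroup B) := {
    toFun := fun x => ⟨g * x * g⁻¹, hPR x x.2⟩
    map_one' := Subtype.ext (by simp)
    map_mul' := fun x y => Subtype.ext (by simp) }
  have hψ : Function.Injective ψ := by
    intro x y h
    have h1 : g * (x : B) * g⁻¹ = g * y * g⁻¹ := congrArg Subtype.val h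
    exact Subtype.ext (by simpa using h1)
  exact ⟨(Q : Subgroup A).subtype.comp (e.symm.toMonoidHom.comp ψ),
    (Q : Subgroup A).subtype_injective.comp (e.symm.injective.comp hψ)⟩

end

end Cfsg.Agent.H530.HT
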