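import Cfsg.Agent.H530.HT.Emb
import Cfsg.Agent.H587.KB8.Geo
import Cfsg.Agent.ClassicalGeometry.OrthAut1

/-!
# `p`-subgroups of `POmega` and of the full isometry group (helper530, S4933 classical rows)

`emb_pomega`, `emb_pomega_back` : for `p` odd and a `Good` form the `p`-subgroups of `POmega` and of the isometry group
are the same.
-/

set_option autoImplicit false

open Cfsg Subgroup QuadraticMap Cfsg.Agent.LieClassical.OrthCore Cfsg.Agent.LieClassical.OrthTrans
open Cfsg.Agent.LieClassical.OrthFinite Cfsg.Agent.ClassicalGeometry Cfsg.Agent.ClassicalGeometry.OrthAut1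

namespace Cfsg.Agent.H530.HT

section

variable {ι : Type} [Fintype ι] [DecidableEq ι] {F : Type*} [Field F] {Q : QuadraticForm F (ι → F)} {p : ℕ}

/-- elements of odd order lie in `Omega` -/
theorem mem_Omega_of_odd (hG : Good Q) {g : isometryGroup F ⇑Q} {n : ℕ} (hn : Odd n) (h : g ^ n = 1) :
    g ∈ Omega F ⇑Q := by
  have h1 : (isometryHom Q g) ∈ E Q := by
    refine H587.KB8.mem_E_of_odd hG ?_ hn ?_
    · rw [← isometryHom_range]
      exact ⟨g, rfl⟩
    · rw [← map_pow, h, map_one]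
  rw [← hG.commutator_eq_E, ← map_Omega] at h1
  obtain ⟨k, hk, hkg⟩ := h1
  rwa [← isometryHom_injective Q hkg]

theorem not_dvd_center_Omega [Finite F] [hp : Fact p.Prime] (hG : Good Q) (hp2 : p ≠ 2) :
    ¬ p ∣ Nat.card (center ↥(Omega F ⇑Q)) := by
  intro h
  have : Finite (isometryGroup F ⇑Q) := inferInstance
  have : Finite (Omega F ⇑Q) := inferInstance
  obtain ⟨z, hz⟩ := exists_prime_orderOf_dvd_card' p h
  let e : Omega F ⇑Q ≃* ↥(E Q) := (omegaEquiv Q).trans (MulEquiv.subgroupCongr hG.commutator_eq_E)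
  have hze : e z.1 ∈ center ↥(E Q) := by
    rw [← map_center_mulEquiv e]
    exact ⟨z.1, z.2, rfl⟩
  obtain ⟨c, hc⟩ := center_scalar hG hze
  obtain ⟨x, y, hxy⟩ := hG.exists_hyp
  have hv : Q (x + y) = 1 := by
    rw [Q_add, hxy.left, hxy.right, hxy.pair]
    ring
  have h1 : c * c = 1 := by
    have h2 := E_le_O (e z.1).2 (x + y)
    rw [hc, QuadraticMap.map_smul, hv, smul_eq_mul, mul_one] at h2
    exact h2
  have h2 : (e z.1) ^ 2 = 1 := by
    apply Subtype.ext
    apply LinearEquiv.ext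
    intro v
    change (e z.1).1 ((e z.1).1 v) = v
    rw [hc, hc, smul_smul, h1, one_smul]
  have h2' : z ^ 2 = 1 := by
    apply Subtype.ext
    apply e.injective
    rw [Subgroup.coe_pow, map_pow, h2, Subgroup.coe_one, map_one]
  have h3 : orderOf z ∣ 2 := orderOf_dvd_of_pow_eq_one h2'
  rw [hz] at h3
  exact hp2 ((Nat.prime_dvd_prime_iff_eq hp.out Nat.prime_two).1 h3)

/-- the `p`-parts -/
theorem val_Omega [Finite F] [hp : Fact p.Prime] (hG : Good Q) (hp2 : p ≠ 2) :
    (Nat.card ↥(Omega F ⇑Q)).factorization p = (Nat.card ↥(isometryGroup F ⇑Q)).factorization p := by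
  have : Finite (isometryGroup F ⇑Q) := inferInstance
  obtain ⟨P⟩ : Nonempty (Sylow p (isometryGroup F ⇑Q)) := inferInstance
  have hle : (P : Subgroup (isometryGroup F ⇑Q)) ≤ Omega F ⇑Q := by
    intro g hg
    obtain ⟨k, hk⟩ := P.2 ⟨g, hg⟩
    refine mem_Omega_of_odd hG (n := p ^ k) ((hp.out.odd_of_ne_two hp2).pow) ?_
    exact congrArg Subtype.val hk
  apply le_antisymm
  · exact (Nat.factorization_le_iff_dvd Nat.card_pos.ne' Nat.card_pos.ne').2 (Subgroup.card_subgroup_dvd_card _) p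
  · have h1 : Nat.card (P : Subgroup (isometryGroup F ⇑Q)) ∣ Nat.card ↥(Omega F ⇑Q) := Subgroup.card_dvd_of_le hle
    rw [P.card_eq_multiplicity] at h1
    exact (hp.out.pow_dvd_iff_le_factorization Nat.card_pos.ne').1 h1

theorem emb_omega : Emb p ↥(Omega F ⇑Q) ↥(isometryGroup F ⇑Q) :=
  Emb.of_injective (Omega F ⇑Q).subtype (Subgroup.subtype_injective _)

theorem emb_omega_back [Finite F] [hp : Fact p.Prime] (hG : Good Q) (hp2 : p ≠ 2) :
    Emb p ↥(isometryGroup F ⇑Q) ↥(Omega F ⇑Q) :=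
  Emb.back (Omega F ⇑Q).subtype (by
    rw [Subgroup.ker_subtype, Subgroup.card_bot]
    exact hp.out.one_lt.ne' ∘ Nat.dvd_one.1) (val_Omega hG hp2)

theorem ker_mk_card [Finite F] : Nat.card (QuotientGroup.mk' (center ↥(Omega F ⇑Q))).ker =
    Nat.card (center ↥(Omega F ⇑Q)) := by
  rw [QuotientGroup.ker_mk']

theorem val_POmega [Finite F] [hp : Fact p.Prime] (hG : Good Q) (hp2 : p ≠ 2) :
    (Nat.card ↥(Omega F ⇑Q)).factorization p = (Nat.card (POmega F ⇑Q)).factorization p := by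
  have : Finite (Omega F ⇑Q) := inferInstance
  have h1 : Nat.card ↥(Omega F ⇑Q) = Nat.card (POmega F ⇑Q) * Nat.card (center ↥(Omega F ⇑Q)) :=
    Subgroup.card_eq_card_quotient_mul_card_subgroup _
  have : Finite (POmega F ⇑Q) := inferInstance
  have h2 : Nat.card (POmega F ⇑Q) ≠ 0 := Nat.card_pos.ne'
  rw [h1, Nat.factorization_mul h2 Nat.card_pos.ne', Finsupp.add_apply,
    Nat.factorization_eq_zero_of_not_dvd (not_dvd_center_Omega hG hp2), add_zero]

/-- **`POmega` and the isometry group** -/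
theorem emb_pomega [Finite F] [hp : Fact p.Prime] (hG : Good Q) (hp2 : p ≠ 2) :
    Emb p (POmega F ⇑Q) ↥(isometryGroup F ⇑Q) := by
  have : Finite (Omega F ⇑Q) := inferInstance
  have : Finite (POmega F ⇑Q) := inferInstance
  exact (Emb.back (QuotientGroup.mk' (center ↥(Omega F ⇑Q))) (by
    rw [ker_mk_card]; exact not_dvd_center_Omega hG hp2) (val_POmega hG hp2)).trans emb_omega

theorem emb_pomega_back [Finite F] [hp : Fact p.Prime] (hG : Good Q) (hp2 : p ≠ 2) :
    Emb p ↥(isometryGroup F ⇑Q) (POmega F ⇑Q) := by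
  have : Finite (Omega F ⇑Q) := inferInstance
  exact (emb_omega_back hG hp2).trans (Emb.of_hom (QuotientGroup.mk' (center ↥(Omega F ⇑Q))) (by
    rw [ker_mk_card]; exact not_dvd_center_Omega hG hp2))

end

end Cfsg.Agent.H530.HT
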